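import Cfsg.Agent.H697.PSolvB
import Cfsg.Agent.H142.GmnBlock
import Cfsg.Agent.H415.Palfy.Ext
import Cfsg.Agent.H593.IMRank
import Cfsg.Agent.H970.CycOne
import Cfsg.Agent.H657.PrinQuot
import Cfsg.Agent.H676.Deg.Half

/-!
# S4879: the `p`-solvable groups (helper271)

* `concl_of_quot` : the conclusion of S4879 passes from `G ⧸ pPrimeCore p G` to `G`;
* `psolv_core` : the `p`-solvable groups with trivial `p'`-core;
* `psolv` : all `p`-solvable groups.
-/

set_option autoImplicit false

namespace Cfsg.Agent.H271.LB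

open Cfsg Subgroup

universe u

/-- The conclusion of S4879. -/
def Concl (p : ℕ) (M : Ideal AlgInt) (G : Type u) [Group G] (P : Subgroup G) : Prop :=
  p ≤ blockRank p (principalBlock M G) ∨
    (blockRank p (principalBlock M G) = p - 1 ∧ Nat.card P = p ∧
      (centralizer (P : Set G)).relIndex (normalizer (P : Set G)) = p - 1) ∨
    (p = 11 ∧ blockRank p (principalBlock M G) = 9 ∧
      (Nat.card (G ⧸ pPrimeCore p G) = 121 * 120 ∧ ∃ H : Subgroup (G ⧸ pPrimeCore p G),
        IsFrobeniusComplement H ∧ Nonempty (↥H ≃* Matrix.SpecialLinearGroup (Fin 2) (ZMod 5))))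

/-- The rank of the set of all characters. -/
theorem blockRank_univ {G : Type u} [Group G] [Finite G] (p : ℕ) :
    blockRank p (Set.univ : Set (IrrCharacter G)) = Nat.card (H697.Pk.PReg p G) := by
  classical
  refine le_antisymm (H970.CycOne.blockRank_univ_le (G := G) p) ?_
  have := Fintype.ofFinite (H697.Pk.PReg p G)
  rw [Nat.card_eq_fintype_card]
  refine H593.IMRank.card_le_blockRank p (fun c : H697.Pk.PReg p G => c.2.choose) (fun c => c.2.choose_spec.2) ?_
  intro c d h
  have h1 := ConjClasses.mk_eq_mk_iff_isConj.2 h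
  rw [c.2.choose_spec.1, d.2.choose_spec.1] at h1
  exact Subtype.ext h1

variable {p : ℕ} [hp : Fact p.Prime] {M : Ideal AlgInt}

/-- The `p`-solvable groups with trivial `p'`-core: the rank of the principal block. -/
theorem rank_core {G : Type u} [Group G] [Finite G] (hM : IsPModular p M)
    (hps : IsPSolvable p G) (hcore : pPrimeCore p G = ⊥) (hdiv : p ∣ Nat.card G)
    (hconj : ∀ x y : G, x ≠ 1 → y ≠ 1 → (∃ k : ℕ, orderOf x = p ^ k) → (∃ k : ℕ, orderOf y = p ^ k) → IsConj x y) :
    blockRank p (principalBlock M G) = Nat.card (H697.Pk.PReg p G) := by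
  classical
  have hp : p.Prime := Fact.out
  obtain ⟨V, H, hVn, hVc, hVp, hV1, hVH, hpH, hcent, htr⟩ :=
    Cfsg.Agent.H697.ActMain.structure_of_core hps hcore hdiv hconj
  have hVpg : IsPGroup p V := by
    intro x
    exact ⟨1, Subtype.ext (by rw [pow_one]; exact hVp x x.2)⟩
  have hidx : ¬ p ∣ V.index := by rw [hVH.symm.index_eq_card]; exact hpH
  have hdeg : ∀ χ : IrrCharacter G, ¬ p ∣ charDegree (χ : G → ℂ) := by
    intro χ h
    apply hidx
    refine h.trans ?_
    have h1 : charDegree (χ : G → ℂ) ∈ charDegrees G :=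
      Cfsg.Agent.H681.DegBasic.mem_charDegrees.2 ⟨χ, χ.2, (Cfsg.Agent.H686.CharKit.charDegree_irr χ).symm⟩
    exact Cfsg.Agent.H415.Palfy.ito V hVc h1
  let P : Sylow p G := hVpg.toSylow hidx
  have hP : (P : Subgroup G) = V := rfl
  have hpe : ∀ v ∈ V, ∃ k : ℕ, orderOf v = p ^ k := by
    intro v hv
    obtain ⟨k, -, hk⟩ := (Nat.dvd_prime_pow hp).1 (show orderOf v ∣ p ^ 1 by
      rw [pow_one]
      exact orderOf_dvd_of_pow_eq_one (hVp v hv))
    exact ⟨k, hk⟩
  have hblk : ∀ χ : IrrCharacter G, χ ∈ principalBlock M G := by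
    intro χ
    refine Cfsg.Agent.H142.GmnBlock.mem_principal hM P χ (hdeg χ) fun g hg => ?_
    refine Cfsg.Agent.H142.GmnBlock.mem_of_pElement hM χ (hpe g (hcent g fun v hv => ?_))
    exact (Subgroup.mem_centralizer_iff.1 hg v hv).symm
  have huniv : principalBlock M G = Set.univ := Set.eq_univ_iff_forall.2 hblk
  rw [huniv, blockRank_univ]

/-- A Sylow `p`-subgroup of a group isomorphic to the affine group has order `p`. -/
theorem card_sylow_of_affine {G : Type u} [Group G] [Finite G] (hdiv : p ∣ Nat.card G) (e : G ≃* affineGroup (ZMod p))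
    (P : Sylow p G) : Nat.card (P : Subgroup G) = p := by
  have hp' := hp.out
  have h1 : Nat.card G ≤ p * (p - 1) := (Nat.card_congr e.toEquiv).trans_le H697.Affine.card_affine_le
  have h2 : Nat.card (P : Subgroup G) = p ^ (Nat.card G).factorization p := P.card_eq_multiplicity
  have h3 : Nat.card (P : Subgroup G) ≤ Nat.card G := Nat.le_of_dvd Nat.card_pos (card_subgroup_dvd_card _)
  have h4 : p * (p - 1) < p ^ 2 := by
    have := hp'.pos
    rw [pow_two]
    exact (Nat.mul_lt_mul_left this).2 (by omega)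
  have h5 : p ^ (Nat.card G).factorization p < p ^ 2 := by
    rw [← h2]; exact h3.trans_lt (h1.trans_lt h4)
  have h6 : (Nat.card G).factorization p < 2 := (Nat.pow_lt_pow_iff_right hp'.one_lt).1 h5
  have h7 : 1 ≤ (Nat.card G).factorization p :=
    (hp'.dvd_iff_one_le_factorization Nat.card_pos.ne').1 hdiv
  rw [h2, show (Nat.card G).factorization p = 1 by omega, pow_one]

/-- One class of `p`-elements and Sylow subgroups of order `p`: the automizer has order `p - 1`. -/
theorem relIndex_of_one {G : Type u} [Group G] [Finite G]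
    (hconj : ∀ x y : G, x ≠ 1 → y ≠ 1 → (∃ k : ℕ, orderOf x = p ^ k) → (∃ k : ℕ, orderOf y = p ^ k) → IsConj x y)
    (P : Sylow p G) (hP : Nat.card (P : Subgroup G) = p) :
    (centralizer ((P : Subgroup G) : Set G)).relIndex (normalizer ((P : Subgroup G) : Set G)) = p - 1 := by
  refine H676.Deg.relIndex_of_conj hP fun x y hx hy => hconj x y ?_ ?_ ?_ ?_
  · exact fun h => hx (Subtype.ext h)
  · exact fun h => hy (Subtype.ext h)
  · obtain ⟨k, hk⟩ := IsPGroup.iff_orderOf.1 P.isPGroup' x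
    exact ⟨k, by rw [← hk, ← Subgroup.orderOf_coe]⟩
  · obtain ⟨k, hk⟩ := IsPGroup.iff_orderOf.1 P.isPGroup' y
    exact ⟨k, by rw [← hk, ← Subgroup.orderOf_coe]⟩

/-- **`p`-solvable groups with trivial `p'`-core.** -/
theorem psolv_core {G : Type u} [Group G] [Finite G] (hM : IsPModular p M)
    (hps : IsPSolvable p G) (hcore : pPrimeCore p G = ⊥) (hdiv : p ∣ Nat.card G)
    (hconj : ∀ x y : G, x ≠ 1 → y ≠ 1 → (∃ k : ℕ, orderOf x = p ^ k) → (∃ k : ℕ, orderOf y = p ^ k) → IsConj x y) :
    p ≤ blockRank p (principalBlock M G) ∨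
    (blockRank p (principalBlock M G) = p - 1 ∧ (∀ P : Sylow p G, Nat.card (P : Subgroup G) = p)) ∨
    (p = 11 ∧ blockRank p (principalBlock M G) = 9 ∧ (Nat.card G = 121 * 120 ∧ ∃ H : Subgroup G,
        IsFrobeniusComplement H ∧ Nonempty (↥H ≃* Matrix.SpecialLinearGroup (Fin 2) (ZMod 5)))) := by
  rw [rank_core hM hps hcore hdiv hconj]
  rcases Cfsg.Agent.H697.PSolvB.main p hps hdiv hconj with h | ⟨h, ⟨e⟩⟩ | h
  · exact Or.inl h
  · exact Or.inr (Or.inl ⟨h, fun P => card_sylow_of_affine hdiv e P⟩)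
  · exact Or.inr (Or.inr h)

/-- **The conclusion of S4879 from the quotient by the `p'`-core.** -/
theorem concl_of_quot {G : Type u} [Group G] [Finite G] (hM : IsPModular p M)
    (hconj : ∀ x y : G, x ≠ 1 → y ≠ 1 → (∃ k : ℕ, orderOf x = p ^ k) → (∃ k : ℕ, orderOf y = p ^ k) → IsConj x y)
    (h : p ≤ blockRank p (principalBlock M (G ⧸ pPrimeCore p G)) ∨
      (blockRank p (principalBlock M (G ⧸ pPrimeCore p G)) = p - 1 ∧
        (∀ P : Sylow p (G ⧸ pPrimeCore p G), Nat.card (P : Subgroup (G ⧸ pPrimeCore p G)) = p)) ∨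
      (p = 11 ∧ blockRank p (principalBlock M (G ⧸ pPrimeCore p G)) = 9 ∧
        (Nat.card (G ⧸ pPrimeCore p G) = 121 * 120 ∧ ∃ H : Subgroup (G ⧸ pPrimeCore p G),
        IsFrobeniusComplement H ∧ Nonempty (↥H ≃* Matrix.SpecialLinearGroup (Fin 2) (ZMod 5)))))
    (P : Sylow p G) : Concl p M G (P : Subgroup G) := by
  have hp' := hp.out
  have hcop := Lib.Cores.pPrimeCore_coprime (G := G) p
  have hN : ¬ p ∣ Nat.card ↥(pPrimeCore p G) := (Nat.Prime.coprime_iff_not_dvd hp.out).1 hcop.symm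
  have hnn : (pPrimeCore p G).Normal := Lib.Cores.pPrimeCore_normal p
  have hk := H657.PrinQuot.blockRank_eq hM (pPrimeCore p G) hN
  unfold Concl
  rw [hk]
  rcases h with h | ⟨h, hQ⟩ | h
  · exact Or.inl h
  · refine Or.inr (Or.inl ⟨h, ?_⟩)
    have hcard : Nat.card (P : Subgroup G) = p := by
      obtain ⟨Q⟩ : Nonempty (Sylow p (G ⧸ pPrimeCore p G)) := inferInstance
      have h1 : Nat.card ↥(Q : Subgroup (G ⧸ pPrimeCore p G)) =
        p ^ (Nat.card (G ⧸ pPrimeCore p G)).factorization p := Q.card_eq_multiplicity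
      have h2 : Nat.card ↥(P : Subgroup G) = p ^ (Nat.card G).factorization p := P.card_eq_multiplicity
      refine Eq.trans ?_ (hQ Q)
      rw [h1, h2, Subgroup.card_eq_card_quotient_mul_card_subgroup (pPrimeCore p G),
        Nat.factorization_mul Nat.card_pos.ne' Nat.card_pos.ne', Finsupp.add_apply,
        Nat.factorization_eq_zero_of_not_dvd hN, add_zero]
    exact ⟨hcard, relIndex_of_one hconj P hcard⟩
  · exact Or.inr (Or.inr h)

/-- **The `p`-solvable row of S4879.** -/
theorem psolv {G : Type u} [Group G] [Finite G] (hM : IsPModular p M)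
    (hps : IsPSolvable p (G ⧸ pPrimeCore p G)) (hdiv : p ∣ Nat.card G)
    (hconj : ∀ x y : G, x ≠ 1 → y ≠ 1 → (∃ k : ℕ, orderOf x = p ^ k) → (∃ k : ℕ, orderOf y = p ^ k) → IsConj x y)
    (P : Sylow p G) : Concl p M G (P : Subgroup G) := by
  have hcop := Lib.Cores.pPrimeCore_coprime (G := G) p
  have hnn : (pPrimeCore p G).Normal := Lib.Cores.pPrimeCore_normal p
  have hf : Function.Surjective (QuotientGroup.mk' (pPrimeCore p G)) := QuotientGroup.mk'_surjective _
  have hc' := H697.PSolvA.hconj_map _ hf hconj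
  have h2' : p ∣ Nat.card (G ⧸ pPrimeCore p G) := by
    have h1 := Subgroup.card_eq_card_quotient_mul_card_subgroup (pPrimeCore p G)
    rw [h1] at hdiv
    exact hcop.symm.dvd_of_dvd_mul_right hdiv
  have hco' := Lib.Cores.pPrimeCore_quotient_pPrimeCore (G := G) p
  exact concl_of_quot hM hconj (psolv_core hM hps hco' h2' hc') P

end Cfsg.Agent.H271.LB
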